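import Cfsg.Agent.Lib.Helper35.JR.Defs
import Cfsg.Agent.Lib.Helper31.OutCount

/-!
# JR (S3206): package [FODD]
-/

set_option autoImplicit false

namespace Cfsg.Agent.Lib.Helper80.JR

open Cfsg Cfsg.Agent.Lib.Helper35.JR

universe u

/-- `diag(u, u⁻¹)` in `SL₂(F)`. -/
def dg80 {F : Type u} [Field F] (u : Fˣ) : Matrix.SpecialLinearGroup (Fin 2) F :=
  ⟨!![(u : F), 0; 0, ((u⁻¹ : Fˣ) : F)], by simp [Matrix.det_fin_two_of]⟩

theorem dg80_mul {F : Type u} [Field F] (u v : Fˣ) : dg80 u * dg80 v = dg80 (u * v) := by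
  apply Subtype.ext
  show (dg80 u).1 * (dg80 v).1 = (dg80 (u * v)).1
  ext i j
  fin_cases i <;> fin_cases j <;> simp [dg80, Matrix.mul_apply, Fin.sum_univ_two, mul_comm]

theorem dg80_one {F : Type u} [Field F] :
    dg80 (1 : Fˣ) = (1 : Matrix.SpecialLinearGroup (Fin 2) F) := by
  apply Subtype.ext
  ext i j
  fin_cases i <;> fin_cases j <;> simp [dg80]

theorem dg80_pow {F : Type u} [Field F] (u : Fˣ) (n : ℕ) : dg80 u ^ n = dg80 (u ^ n) := by
  induction n with
  | zero => simp [dg80_one]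
  | succ n ih => rw [pow_succ, ih, dg80_mul, pow_succ]

theorem exists_unit80 {F : Type u} [Field F] [Fintype F] (h8 : 8 ∣ Fintype.card F - 1) :
    ∃ u : Fˣ, u ^ 8 = 1 ∧ u ^ 4 ≠ 1 := by
  classical
  obtain ⟨g, hg⟩ := IsCyclic.exists_generator (α := Fˣ)
  have hord : orderOf g = Fintype.card F - 1 := by
    rw [orderOf_eq_card_of_forall_mem_zpowers hg, Nat.card_eq_fintype_card, Fintype.card_units]
  obtain ⟨m, hm⟩ := h8
  have hm0 : 0 < m := by
    rcases Nat.eq_zero_or_pos m with h | h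
    · subst h
      have : 1 < Fintype.card F := Fintype.one_lt_card
      omega
    · exact h
  refine ⟨g ^ m, ?_, ?_⟩
  · rw [← pow_mul, mul_comm, ← hm, ← hord, pow_orderOf_eq_one]
  · intro h
    rw [← pow_mul] at h
    have h1 := orderOf_dvd_of_pow_eq_one h
    rw [hord, hm] at h1
    have h2 := Nat.le_of_dvd (by omega) h1
    omega

/-- [FODD] if the Sylow 2-subgroups of `PSL₂(F)` have exponent 2 (`|F|` odd), then `Aut(F)`
has no nontrivial 2-elements. -/
theorem pkgFodd : PkgFodd.{u} := by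
  intro F _ _ hodd hexp σ k hσ
  classical
  obtain ⟨p, hp⟩ := CharP.exists F
  have := hp
  obtain ⟨n, hpp, hcard⟩ := FiniteField.card F p
  have : Fact p.Prime := ⟨hpp⟩
  have hf : Odd (n : ℕ) := by
    by_contra hne
    rw [Nat.not_odd_iff_even] at hne
    obtain ⟨m, hm⟩ := hne
    have hq : Fintype.card F = p ^ m * p ^ m := by rw [hcard, hm, pow_add]
    have hpm : (p ^ m) % 2 = 1 := by
      rcases Nat.even_or_odd (p ^ m) with he | ho
      · exfalso
        have h1 : Even (Fintype.card F) := by rw [hq]; exact he.mul_right _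
        exact (Nat.not_even_iff_odd.mpr hodd) h1
      · exact Nat.odd_iff.mp ho
    have h8 : 8 ∣ Fintype.card F - 1 := by
      have h1 : p ^ m % 8 = 1 ∨ p ^ m % 8 = 3 ∨ p ^ m % 8 = 5 ∨ p ^ m % 8 = 7 := by omega
      have h2 : Fintype.card F % 8 = 1 := by
        rw [hq, Nat.mul_mod]
        rcases h1 with h | h | h | h <;> rw [h]
      omega
    obtain ⟨u, hu8, hu4⟩ := exists_unit80 h8
    have hx8 : (QuotientGroup.mk (dg80 u) : Matrix.ProjectiveSpecialLinearGroup (Fin 2) F) ^ 8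
        = 1 := by
      rw [← QuotientGroup.mk_pow, dg80_pow, hu8, dg80_one]; rfl
    have hpg : IsPGroup 2 (Subgroup.zpowers
        (QuotientGroup.mk (dg80 u) : Matrix.ProjectiveSpecialLinearGroup (Fin 2) F)) := by
      rintro ⟨g, hg⟩
      obtain ⟨j, rfl⟩ := Subgroup.mem_zpowers_iff.mp hg
      refine ⟨3, Subtype.ext ?_⟩
      show ((QuotientGroup.mk (dg80 u) : Matrix.ProjectiveSpecialLinearGroup (Fin 2) F) ^ j)
        ^ (2 ^ 3) = 1
      rw [← zpow_natCast, ← zpow_mul, mul_comm, zpow_mul, zpow_natCast]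
      norm_num [hx8]
    obtain ⟨P, hP⟩ := hpg.exists_le_sylow
    have hx2 := hexp P _ (hP (Subgroup.mem_zpowers _))
    rw [← QuotientGroup.mk_pow, dg80_pow] at hx2
    have hx3 : dg80 (u ^ 2) ∈ Subgroup.center (Matrix.SpecialLinearGroup (Fin 2) F) :=
      (QuotientGroup.eq_one_iff _).mp hx2
    rw [Matrix.SpecialLinearGroup.mem_center_iff] at hx3
    obtain ⟨r, -, hr⟩ := hx3
    have h00 : r = ((u ^ 2 : Fˣ) : F) := by
      have h1 := congrFun (congrFun hr 0) 0
      simpa [dg80] using h1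
    have h11 : r = (((u ^ 2)⁻¹ : Fˣ) : F) := by
      have h1 := congrFun (congrFun hr 1) 1
      simpa [dg80] using h1
    have h5 : (u ^ 2 : Fˣ) = (u ^ 2)⁻¹ := Units.ext (h00.symm.trans h11)
    apply hu4
    have h4 : u ^ 4 = u ^ 2 * u ^ 2 := by rw [← pow_add]
    rw [h4]
    exact mul_eq_one_iff_eq_inv.mpr h5
  have hcardAut : Nat.card (F ≃+* F) = (n : ℕ) :=
    Cfsg.Agent.Lib.Helper31.card_ringAut_of_card p n hcard
  have h1 : orderOf σ ∣ 2 ^ k := orderOf_dvd_of_pow_eq_one hσ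
  have h2 : orderOf σ ∣ (n : ℕ) := by rw [← hcardAut]; exact orderOf_dvd_natCard σ
  have hco : Nat.gcd (2 ^ k) n = 1 := Nat.Coprime.pow_left k (Nat.coprime_two_left.mpr hf)
  have h3 := Nat.dvd_gcd h1 h2
  rw [hco] at h3
  exact orderOf_eq_one_iff.mp (Nat.dvd_one.mp h3)

end Cfsg.Agent.Lib.Helper80.JR
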