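import Cfsg.Agent.Lib.Helper35.JR.Defs

/-!
# JR (S3206): package [SYL4]
-/

set_option autoImplicit false

namespace Cfsg.Agent.Lib.Helper80.JR

open Cfsg Cfsg.Agent.Lib.Helper35.JR

universe u

section
variable {F : Type u} [Field F]

/-- Equality in `PSL₂(F)`. -/
theorem mk_eq_iff80 (S T : Matrix.SpecialLinearGroup (Fin 2) F) :
    (QuotientGroup.mk S : Matrix.ProjectiveSpecialLinearGroup (Fin 2) F) = QuotientGroup.mk T ↔
      S.1 = T.1 ∨ S.1 = -T.1 := by
  rw [QuotientGroup.eq, Matrix.SpecialLinearGroup.mem_center_iff]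
  have hs : Matrix.scalar (Fin 2) (-1 : F) = -1 := by rw [map_neg, map_one]
  constructor
  · rintro ⟨r, hr, hrS⟩
    have hT : T.1 = S.1 * Matrix.scalar (Fin 2) r := by
      rw [hrS, ← Matrix.SpecialLinearGroup.coe_mul, mul_inv_cancel_left]
    have hr2 : r * r = 1 := by
      rw [← sq]; simpa using hr
    rcases mul_self_eq_one_iff.mp hr2 with rfl | rfl
    · left; rw [hT, map_one, mul_one]
    · right; rw [hT, hs, Matrix.mul_neg, mul_one, neg_neg]
  · rintro (h | h)
    · refine ⟨1, by simp, ?_⟩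
      have h1 : S = T := Subtype.ext h
      subst h1; simp
    · refine ⟨-1, by simp, ?_⟩
      have h1 : T.1 = -S.1 := by rw [h]; simp
      rw [Matrix.SpecialLinearGroup.coe_mul, h1, Matrix.mul_neg,
        ← Matrix.SpecialLinearGroup.coe_mul, inv_mul_cancel, hs]
      rfl

theorem mk_eq_one80 (X : Matrix.SpecialLinearGroup (Fin 2) F)
    (h : (QuotientGroup.mk X : Matrix.ProjectiveSpecialLinearGroup (Fin 2) F) = 1) :
    X.1 0 1 = 0 ∧ X.1 0 0 = X.1 1 1 := by
  have h1 : (QuotientGroup.mk X : Matrix.ProjectiveSpecialLinearGroup (Fin 2) F)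
      = QuotientGroup.mk 1 := h
  rcases (mk_eq_iff80 X 1).mp h1 with h2 | h2
  · rw [h2]; simp
  · rw [h2]; simp

theorem elA_val80 : (elA F).1 = !![0, -1; 1, 0] := rfl

theorem elB_val80 (a b : F) (h : a ^ 2 + b ^ 2 = -1) : (elB a b h).1 = !![a, b; b, -a] := rfl

theorem pA_sq80 : pA F * pA F = 1 := by
  have h1 : (QuotientGroup.mk (elA F * elA F) : Matrix.ProjectiveSpecialLinearGroup (Fin 2) F)
      = QuotientGroup.mk 1 := by
    rw [mk_eq_iff80]
    right
    rw [Matrix.SpecialLinearGroup.coe_mul, elA_val80]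
    ext i j
    fin_cases i <;> fin_cases j <;> simp [Matrix.mul_apply, Fin.sum_univ_two]
  exact h1

theorem pB_sq80 (a b : F) (h : a ^ 2 + b ^ 2 = -1) : pB a b h * pB a b h = 1 := by
  have h1 : (QuotientGroup.mk (elB a b h * elB a b h) :
      Matrix.ProjectiveSpecialLinearGroup (Fin 2) F) = QuotientGroup.mk 1 := by
    rw [mk_eq_iff80]
    right
    rw [Matrix.SpecialLinearGroup.coe_mul, elB_val80]
    ext i j
    fin_cases i <;> fin_cases j <;> simp [Matrix.mul_apply, Fin.sum_univ_two]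
    · linear_combination h
    · ring
    · ring
    · linear_combination h
  exact h1

theorem pA_pB_comm80 (a b : F) (h : a ^ 2 + b ^ 2 = -1) :
    pA F * pB a b h = pB a b h * pA F := by
  have h1 : (QuotientGroup.mk (elA F * elB a b h) :
      Matrix.ProjectiveSpecialLinearGroup (Fin 2) F) = QuotientGroup.mk (elB a b h * elA F) := by
    rw [mk_eq_iff80]
    right
    rw [Matrix.SpecialLinearGroup.coe_mul, Matrix.SpecialLinearGroup.coe_mul, elB_val80,
      elA_val80]
    ext i j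
    fin_cases i <;> fin_cases j <;> simp [Matrix.mul_apply, Fin.sum_univ_two]
  exact h1

theorem pA_ne_one80 : pA F ≠ 1 := by
  intro h
  have h1 := (mk_eq_one80 (elA F) h).1
  rw [elA_val80] at h1
  simp at h1

theorem pB_ne_one80 (h2 : (2 : F) ≠ 0) (a b : F) (h : a ^ 2 + b ^ 2 = -1) : pB a b h ≠ 1 := by
  intro h0
  obtain ⟨h1, h3⟩ := mk_eq_one80 (elB a b h) h0
  rw [elB_val80] at h1 h3
  simp at h1 h3
  have ha : a = 0 := by
    have h4 : (2 : F) * a = 0 := by linear_combination h3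
    rcases mul_eq_zero.mp h4 with h5 | h5
    · exact absurd h5 h2
    · exact h5
  rw [ha, h1] at h
  have h6 : (2 : F) = 0 := by linear_combination (2 : F) * h
  exact h2 h6

theorem pApB_ne_one80 (h2 : (2 : F) ≠ 0) (a b : F) (h : a ^ 2 + b ^ 2 = -1) :
    pA F * pB a b h ≠ 1 := by
  intro h0
  have h0' : (QuotientGroup.mk (elA F * elB a b h) :
      Matrix.ProjectiveSpecialLinearGroup (Fin 2) F) = 1 := h0
  obtain ⟨h1, h3⟩ := mk_eq_one80 _ h0'
  rw [Matrix.SpecialLinearGroup.coe_mul, elB_val80, elA_val80] at h1 h3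
  simp [Matrix.mul_apply, Fin.sum_univ_two] at h1 h3
  have hb : b = 0 := by
    have h4 : (2 : F) * b = 0 := by linear_combination -h3
    rcases mul_eq_zero.mp h4 with h5 | h5
    · exact absurd h5 h2
    · exact h5
  rw [h1, hb] at h
  have h6 : (2 : F) = 0 := by linear_combination (2 : F) * h
  exact h2 h6

/-- The centralizer of `pA`, `pB` lies in `V0`. -/
theorem cent_sub_V0_80 (hV0 : PkgV0.{u}) (h2 : (2 : F) ≠ 0) (a b : F) (h : a ^ 2 + b ^ 2 = -1)
    (x : Matrix.ProjectiveSpecialLinearGroup (Fin 2) F) (hxA : x * pA F = pA F * x)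
    (hxB : x * pB a b h = pB a b h * x) : x ∈ V0 a b h := by
  obtain ⟨M, rfl⟩ := QuotientGroup.mk_surjective x
  have hA : M.1 * !![0, -1; 1, 0] = !![0, -1; 1, 0] * M.1 ∨
      M.1 * !![0, -1; 1, 0] = -(!![0, -1; 1, 0] * M.1) := by
    have h1 := (mk_eq_iff80 (M * elA F) (elA F * M)).mp hxA
    rw [Matrix.SpecialLinearGroup.coe_mul, Matrix.SpecialLinearGroup.coe_mul, elA_val80] at h1
    exact h1
  have hB : M.1 * !![a, b; b, -a] = !![a, b; b, -a] * M.1 ∨
      M.1 * !![a, b; b, -a] = -(!![a, b; b, -a] * M.1) := by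
    have h1 := (mk_eq_iff80 (M * elB a b h) (elB a b h * M)).mp hxB
    rw [Matrix.SpecialLinearGroup.coe_mul, Matrix.SpecialLinearGroup.coe_mul, elB_val80] at h1
    exact h1
  obtain ⟨c, hc⟩ := hV0 F h2 a b h M.1 hA hB
  have hc2 : ∀ X : Matrix.SpecialLinearGroup (Fin 2) F, M.1 = c • X.1 →
      (QuotientGroup.mk M : Matrix.ProjectiveSpecialLinearGroup (Fin 2) F)
        = QuotientGroup.mk X := by
    intro X hX
    have h1 : c * c = 1 := by
      have h3 : M.1.det = 1 := M.2
      rw [hX, Matrix.det_smul, X.2] at h3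
      rw [← sq]; simpa using h3
    rcases mul_self_eq_one_iff.mp h1 with rfl | rfl
    · exact (mk_eq_iff80 M X).mpr (Or.inl (by rw [hX, one_smul]))
    · exact (mk_eq_iff80 M X).mpr (Or.inr (by rw [hX]; simp))
  show _ = 1 ∨ _ = pA F ∨ _ = pB a b h ∨ _ = pA F * pB a b h
  rcases hc with hc | hc | hc | hc
  · exact Or.inl (hc2 1 (by rw [hc]; rfl))
  · exact Or.inr (Or.inl (hc2 (elA F) hc))
  · exact Or.inr (Or.inr (Or.inl (hc2 (elB a b h) hc)))
  · exact Or.inr (Or.inr (Or.inr (hc2 (elA F * elB a b h)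
      (by rw [Matrix.SpecialLinearGroup.coe_mul]; exact hc))))

theorem V0_sq80 (a b : F) (h : a ^ 2 + b ^ 2 = -1)
    (x : Matrix.ProjectiveSpecialLinearGroup (Fin 2) F) (hx : x ∈ V0 a b h) : x ^ 2 = 1 := by
  have hx' : x = 1 ∨ x = pA F ∨ x = pB a b h ∨ x = pA F * pB a b h := hx
  rcases hx' with rfl | rfl | rfl | rfl
  · simp
  · rw [sq]; exact pA_sq80
  · rw [sq]; exact pB_sq80 a b h
  · rw [sq]
    calc pA F * pB a b h * (pA F * pB a b h)
        = pA F * (pB a b h * pA F) * pB a b h := by group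
      _ = pA F * (pA F * pB a b h) * pB a b h := by rw [pA_pB_comm80]
      _ = (pA F * pA F) * (pB a b h * pB a b h) := by group
      _ = 1 := by rw [pA_sq80, pB_sq80, one_mul]

theorem V0_ncard80 (h2 : (2 : F) ≠ 0) (a b : F) (h : a ^ 2 + b ^ 2 = -1) :
    (V0 a b h).ncard = 4 := by
  classical
  have hA := pA_ne_one80 (F := F)
  have hB := pB_ne_one80 h2 a b h
  have hAB := pApB_ne_one80 h2 a b h
  have h1 : pB a b h ≠ pA F * pB a b h := by
    intro h3
    apply hA
    have h4 : pA F * pB a b h = 1 * pB a b h := by rw [one_mul]; exact h3.symm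
    exact mul_right_cancel h4
  have h3 : pA F ≠ pB a b h := by
    intro h4
    apply hAB
    rw [← h4]; exact pA_sq80
  have h4 : pA F ≠ pA F * pB a b h := by
    intro h5
    apply hB
    have h6 : pA F * pB a b h = pA F * 1 := by rw [mul_one]; exact h5.symm
    exact mul_left_cancel h6
  show ({1, pA F, pB a b h, pA F * pB a b h} :
    Set (Matrix.ProjectiveSpecialLinearGroup (Fin 2) F)).ncard = 4
  rw [Set.ncard_insert_of_notMem (by
      simp only [Set.mem_insert_iff, Set.mem_singleton_iff, not_or]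
      exact ⟨hA.symm, hB.symm, hAB.symm⟩) (Set.toFinite _),
    Set.ncard_insert_of_notMem (by
      simp only [Set.mem_insert_iff, Set.mem_singleton_iff, not_or]
      exact ⟨h3, h4⟩) (Set.toFinite _),
    Set.ncard_pair h1]

end

/-- [SYL4] if the Sylow 2-subgroups of `PSL₂(F)` are abelian, each is a conjugate of `V₀`, of
order 4 and exponent 2. -/
theorem pkgSyl4 : PkgV0.{u} → PkgSyl4.{u} := by
  intro hV0 F _ _ h2 a b h hab P
  classical
  -- the centralizer of `pA`, `pB`
  have hcomm := pA_pB_comm80 a b h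
  have hpg : IsPGroup 2 (Subgroup.centralizer ({pA F, pB a b h} :
      Set (Matrix.ProjectiveSpecialLinearGroup (Fin 2) F))) := by
    rintro ⟨x, hx⟩
    refine ⟨1, Subtype.ext ?_⟩
    have hxA := hx (pA F) (by simp)
    have hxB := hx (pB a b h) (by simp)
    have hxV := cent_sub_V0_80 hV0 h2 a b h x hxA.symm hxB.symm
    show x ^ (2 ^ 1) = 1
    rw [pow_one]; exact V0_sq80 a b h x hxV
  obtain ⟨P0, hP0⟩ := hpg.exists_le_sylow
  have hAC : pA F ∈ Subgroup.centralizer ({pA F, pB a b h} :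
      Set (Matrix.ProjectiveSpecialLinearGroup (Fin 2) F)) := by
    intro y hy
    rcases hy with rfl | rfl
    · rfl
    · exact hcomm.symm
  have hBC : pB a b h ∈ Subgroup.centralizer ({pA F, pB a b h} :
      Set (Matrix.ProjectiveSpecialLinearGroup (Fin 2) F)) := by
    intro y hy
    rcases hy with rfl | rfl
    · exact hcomm
    · rfl
  have hA0 : pA F ∈ (P0 : Subgroup (Matrix.ProjectiveSpecialLinearGroup (Fin 2) F)) := hP0 hAC
  have hB0 : pB a b h ∈ (P0 : Subgroup (Matrix.ProjectiveSpecialLinearGroup (Fin 2) F)) :=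
    hP0 hBC
  have hP0V : ∀ x, x ∈ (P0 : Subgroup (Matrix.ProjectiveSpecialLinearGroup (Fin 2) F)) ↔
      x ∈ V0 a b h := by
    intro x
    constructor
    · intro hx
      exact cent_sub_V0_80 hV0 h2 a b h x (hab P0 x hx _ hA0) (hab P0 x hx _ hB0)
    · intro hx
      have hx' : x = 1 ∨ x = pA F ∨ x = pB a b h ∨ x = pA F * pB a b h := hx
      rcases hx' with rfl | rfl | rfl | rfl
      · exact Subgroup.one_mem _
      · exact hA0
      · exact hB0
      · exact Subgroup.mul_mem _ hA0 hB0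
  obtain ⟨g, hg⟩ := MulAction.exists_smul_eq (Matrix.ProjectiveSpecialLinearGroup (Fin 2) F) P0 P
  have hPV : ∀ x, x ∈ (P : Subgroup (Matrix.ProjectiveSpecialLinearGroup (Fin 2) F)) ↔
      g⁻¹ * x * g ∈ V0 a b h := by
    intro x
    rw [← hP0V, ← hg, Sylow.coe_subgroup_smul, Subgroup.mem_pointwise_smul_iff_inv_smul_mem]
    simp [MulAut.smul_def]
  refine ⟨?_, ?_, g, hPV⟩
  · rw [← V0_ncard80 h2 a b h, ← Nat.card_coe_set_eq]
    exact Nat.card_congr (Equiv.subtypeEquiv ((Equiv.mulLeft g⁻¹).trans (Equiv.mulRight g))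
      (fun x => by simpa using hPV x))
  · intro x hx
    have h1 := V0_sq80 a b h _ ((hPV x).mp hx)
    have h3 : x * x = g * ((g⁻¹ * x * g) * (g⁻¹ * x * g)) * g⁻¹ := by simp [mul_assoc]
    rw [sq, h3, ← sq, h1, mul_one, mul_inv_cancel]

end Cfsg.Agent.Lib.Helper80.JR
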